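-- Team project S4033 (helper9), package [B] (helper97, backup seat): if all `r`-elements for
-- `r ∉ {p, q}` are central then `G = (P ⊔ Q) × A` with `A` central.
import Mathlib
import Cfsg.Agent.Lib.Helper9.S4033.Defs

set_option autoImplicit false

namespace Cfsg.Agent.Lib.Helper97.S4033

open Cfsg.Agent.Lib.Helper9.S4033

universe u

/-- [B] -/
theorem pkgB : PkgB.{u} := by
  intro G _ _ p q hp hq hqp hcen
  classical
  have hpf : Fact p.Prime := Fact.mk hp
  have hqf : Fact q.Prime := Fact.mk hq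
  let A : Subgroup G :=
    { carrier := {z | z ∈ Subgroup.center G ∧ (orderOf z).Coprime (p * q)}
      one_mem' := ⟨Subgroup.one_mem _, by rw [orderOf_one]; exact Nat.coprime_one_left _⟩
      mul_mem' := by
        rintro z w ⟨hz, hzo⟩ ⟨hw, hwo⟩
        refine ⟨Subgroup.mul_mem _ hz hw, ?_⟩
        have hc : Commute z w := (Subgroup.mem_center_iff.mp hz w).symm
        have hdvd := hc.orderOf_mul_dvd_lcm
        exact Nat.Coprime.coprime_dvd_left (hdvd.trans (Nat.lcm_dvd_mul _ _))
          (Nat.Coprime.mul_left hzo hwo)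
      inv_mem' := by
        rintro z ⟨hz, hzo⟩
        exact ⟨Subgroup.inv_mem _ hz, by rw [orderOf_inv]; exact hzo⟩ }
  have hAcen : A ≤ Subgroup.center G := fun z hz => hz.1
  have hAn : A.Normal := by
    constructor
    intro n hn g
    have h1 : g * n * g⁻¹ = n := by
      rw [Subgroup.mem_center_iff.mp hn.1 g, mul_inv_cancel_right]
    rw [h1]
    exact hn
  have hAr : ∀ r : ℕ, r.Prime → r ∣ p * q → ¬ r ∣ Nat.card A := by
    intro r hr hrpq hrA
    have hrf : Fact r.Prime := Fact.mk hr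
    obtain ⟨x, hx⟩ := exists_prime_orderOf_dvd_card' r hrA
    have hx' : orderOf (x : G) = r := by
      rw [Subgroup.orderOf_coe]
      exact hx
    have hcop : (orderOf (x : G)).Coprime (p * q) := x.2.2
    rw [hx'] at hcop
    exact hr.one_lt.ne' (Nat.Coprime.eq_one_of_dvd hcop hrpq)
  have hpk : ∀ (r : ℕ) [Fact r.Prime] (S : Sylow r G), ∀ g ∈ (S : Subgroup G),
      ∃ k : ℕ, orderOf g = r ^ k := by
    intro r _ S g hg
    obtain ⟨k, hk⟩ := S.2 ⟨g, hg⟩
    have h1 : g ^ r ^ k = 1 := congrArg Subtype.val hk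
    exact exists_orderOf_eq_prime_pow_iff.mpr ⟨k, h1⟩
  have hidx : ∀ r : ℕ, r.Prime → r ∣ A.index → r = p ∨ r = q := by
    intro r hr hri
    by_contra hcon
    push Not at hcon
    have hrf : Fact r.Prime := Fact.mk hr
    obtain ⟨R⟩ : Nonempty (Sylow r G) := inferInstance
    have hRA : (R : Subgroup G) ≤ A := by
      intro g hg
      have hk := hpk r R g hg
      refine ⟨hcen g r hr hcon.1 hcon.2 hk, ?_⟩
      obtain ⟨k, hk⟩ := hk
      rw [hk]
      apply Nat.Coprime.pow_left
      exact Nat.Coprime.mul_right ((Nat.coprime_primes hr hp).mpr hcon.1)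
        ((Nat.coprime_primes hr hq).mpr hcon.2)
    exact R.not_dvd_index (dvd_trans hri (Subgroup.index_dvd_of_le hRA))
  have hcop : (Nat.card A).Coprime A.index := by
    apply Nat.coprime_of_dvd
    intro r hr hrA hri
    rcases hidx r hr hri with h | h
    · exact hAr r hr (h ▸ dvd_mul_right _ _) hrA
    · exact hAr r hr (h ▸ dvd_mul_left _ _) hrA
  obtain ⟨H, hAH⟩ := Subgroup.exists_right_complement'_of_coprime hcop
  have hdec : ∀ g : G, ∃ a ∈ A, ∃ h ∈ H, g = a * h := by
    intro g
    obtain ⟨⟨a, h⟩, rfl⟩ := hAH.2 g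
    exact ⟨a.1, a.2, h.1, h.2, rfl⟩
  have hdisj : ∀ x : G, x ∈ A → x ∈ H → x = 1 := by
    intro x hxA hxH
    exact Subgroup.disjoint_def.mp hAH.disjoint hxA hxH
  have hHn : H.Normal := by
    constructor
    intro h hh g
    obtain ⟨a, ha, h', hh', rfl⟩ := hdec g
    have hac : ∀ x : G, x * a = a * x := Subgroup.mem_center_iff.mp ha.1
    have h1 : a * h' * h * (a * h')⁻¹ = a * (h' * h * h'⁻¹) * a⁻¹ := by group
    rw [h1, ← hac (h' * h * h'⁻¹), mul_inv_cancel_right]
    exact H.mul_mem (H.mul_mem hh' hh) (H.inv_mem hh')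
  have hHcard : Nat.card H = A.index := (hAH.symm.index_eq_card).symm
  have hrH : ∀ r : ℕ, r.Prime → ¬ r ∣ Nat.card A → ∀ g : G,
      (∃ k : ℕ, orderOf g = r ^ k) → g ∈ H := by
    rintro r hr hrA g ⟨k, hk⟩
    obtain ⟨a, ha, h, hh, rfl⟩ := hdec g
    have hc : Commute a h := (Subgroup.mem_center_iff.mp ha.1 h).symm
    have h1 : (a * h) ^ (r ^ k) = 1 := by
      rw [← hk]
      exact pow_orderOf_eq_one _
    rw [hc.mul_pow] at h1
    have h2 : a ^ (r ^ k) = (h ^ (r ^ k))⁻¹ := eq_inv_of_mul_eq_one_left h1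
    have h3 : a ^ (r ^ k) = 1 :=
      hdisj _ (A.pow_mem ha _) (by rw [h2]; exact H.inv_mem (H.pow_mem hh _))
    have h4 : orderOf a ∣ r ^ k := orderOf_dvd_of_pow_eq_one h3
    have h5 : orderOf a ∣ Nat.card A := Subgroup.orderOf_dvd_natCard A ha
    have h6 : (r ^ k).Coprime (Nat.card A) :=
      Nat.Coprime.pow_left k ((Nat.Prime.coprime_iff_not_dvd hr).mpr hrA)
    have h7 : orderOf a = 1 :=
      Nat.Coprime.eq_one_of_dvd (Nat.Coprime.coprime_dvd_left h4 h6) h5
    rw [orderOf_eq_one_iff.mp h7, one_mul]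
    exact hh
  obtain ⟨P⟩ : Nonempty (Sylow p G) := inferInstance
  obtain ⟨Q⟩ : Nonempty (Sylow q G) := inferInstance
  have hPH : (P : Subgroup G) ≤ H := fun g hg =>
    hrH p hp (hAr p hp (dvd_mul_right _ _)) g (hpk p P g hg)
  have hQH : (Q : Subgroup G) ≤ H := fun g hg =>
    hrH q hq (hAr q hq (dvd_mul_left _ _)) g (hpk q Q g hg)
  have hPQH : (P : Subgroup G) ⊔ (Q : Subgroup G) ≤ H := sup_le hPH hQH
  have hPc : Nat.card P = p ^ (Nat.card G).factorization p := Sylow.card_eq_multiplicity P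
  have hQc : Nat.card Q = q ^ (Nat.card G).factorization q := Sylow.card_eq_multiplicity Q
  have hcopPQ : (Nat.card P).Coprime (Nat.card Q) := by
    rw [hPc, hQc]
    exact Nat.Coprime.pow _ _ ((Nat.coprime_primes hp hq).mpr (Ne.symm hqp))
  have hdvd1 : Nat.card P * Nat.card Q ∣ Nat.card H :=
    Nat.Coprime.mul_dvd_of_dvd_of_dvd hcopPQ (Subgroup.card_dvd_of_le hPH)
      (Subgroup.card_dvd_of_le hQH)
  have hHPQ : Nat.card H = Nat.card P * Nat.card Q := by
    obtain ⟨t, ht⟩ := hdvd1
    have ht1 : t = 1 := by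
      by_contra hne
      obtain ⟨r, hr, hrt⟩ := Nat.exists_prime_and_dvd hne
      have hrH' : r ∣ A.index := by
        rw [← hHcard, ht]
        exact dvd_mul_of_dvd_right hrt _
      have hG : Nat.card A * (Nat.card P * Nat.card Q * t) = Nat.card G := by
        rw [← ht, hHcard]
        exact Subgroup.card_mul_index A
      rcases hidx r hr hrH' with h | h
      · apply P.not_dvd_index
        have hPi : Nat.card P * (P : Subgroup G).index = Nat.card G :=
          Subgroup.card_mul_index _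
        have hpos : 0 < Nat.card P := Nat.card_pos
        have h2 : (P : Subgroup G).index = Nat.card A * Nat.card Q * t := by
          apply Nat.eq_of_mul_eq_mul_left hpos
          rw [hPi, ← hG]
          ring
        rw [h2, ← h]
        exact dvd_mul_of_dvd_right hrt _
      · apply Q.not_dvd_index
        have hQi : Nat.card Q * (Q : Subgroup G).index = Nat.card G :=
          Subgroup.card_mul_index _
        have hpos : 0 < Nat.card Q := Nat.card_pos
        have h2 : (Q : Subgroup G).index = Nat.card A * Nat.card P * t := by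
          apply Nat.eq_of_mul_eq_mul_left hpos
          rw [hQi, ← hG]
          ring
        rw [h2, ← h]
        exact dvd_mul_of_dvd_right hrt _
    rw [ht, ht1, mul_one]
  have hsupcard : Nat.card ↥((P : Subgroup G) ⊔ (Q : Subgroup G)) =
      Nat.card P * Nat.card Q := by
    apply Nat.dvd_antisymm
    · rw [← hHPQ]
      exact Subgroup.card_dvd_of_le hPQH
    · exact Nat.Coprime.mul_dvd_of_dvd_of_dvd hcopPQ (Subgroup.card_dvd_of_le le_sup_left)
        (Subgroup.card_dvd_of_le le_sup_right)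
  have hsupH : (P : Subgroup G) ⊔ (Q : Subgroup G) = H :=
    Subgroup.eq_of_le_of_card_ge hPQH (by rw [hsupcard, hHPQ])
  refine ⟨P, Q, A, hAcen, hsupcard, ?_, ?_, ?_⟩
  · rw [hsupH]
    exact hHn
  · rw [hsupH, inf_comm]
    exact hAH.disjoint.eq_bot
  · rw [hsupH, sup_comm]
    exact hAH.sup_eq_top

end Cfsg.Agent.Lib.Helper97.S4033
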