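-- Team project S4033 (helper9), package [H2] (helper97, backup seat): unpacking the hypothesis
-- "exactly two p-regular class sizes".
import Mathlib
import Cfsg.Agent.Lib.Helper9.S4033.Defs
import Cfsg.Agent.Lib.Helper67.SylowLemmas

set_option autoImplicit false

namespace Cfsg.Agent.Lib.Helper97.S4033

open Cfsg.Agent.Lib.Helper9.S4033

universe u

/-- [H2] -/
theorem pkgH2 : PkgH2.{u} := by
  intro G _ _ p h2
  obtain ⟨a, b, hab, hrange⟩ := Set.ncard_eq_two.mp h2
  have hone : (ConjClasses.mk (1 : G)).carrier.ncard = 1 := by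
    rw [Cfsg.Agent.Lib.Helper67.ncard_conjClasses_carrier, Subgroup.index_eq_one, eq_top_iff]
    intro g _
    rw [Subgroup.mem_centralizer_iff]
    intro h hh
    rw [Set.mem_singleton_iff] at hh
    rw [hh, one_mul, mul_one]
  have h1mem : (1 : ℕ) ∈ Set.range fun x : {x : G // (orderOf x).Coprime p} =>
      (ConjClasses.mk (x : G)).carrier.ncard :=
    ⟨⟨1, by rw [orderOf_one]; exact Nat.coprime_one_left p⟩, hone⟩
  obtain ⟨m, hm1, hrange'⟩ : ∃ m : ℕ, m ≠ 1 ∧
      (Set.range fun x : {x : G // (orderOf x).Coprime p} =>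
        (ConjClasses.mk (x : G)).carrier.ncard) = {1, m} := by
    rw [hrange] at h1mem
    rcases h1mem with h | h
    · refine ⟨b, fun hb => hab (by rw [← h, hb]), ?_⟩
      rw [hrange, ← h]
    · rw [Set.mem_singleton_iff] at h
      refine ⟨a, fun ha => hab (by rw [← h, ha]), ?_⟩
      rw [hrange, ← h, Set.pair_comm]
  refine ⟨m, fun x hx => ?_⟩
  have hfx : (ConjClasses.mk x).carrier.ncard ∈ ({1, m} : Set ℕ) := by
    rw [← hrange']
    exact ⟨⟨x, hx⟩, rfl⟩
  have hfx' : (ConjClasses.mk x).carrier.ncard = 1 ∨ (ConjClasses.mk x).carrier.ncard = m := by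
    rcases hfx with h | h
    · exact Or.inl h
    · exact Or.inr (Set.mem_singleton_iff.mp h)
  refine ⟨hfx', fun hxc => ?_⟩
  rw [← Cfsg.Agent.Lib.Helper67.ncard_conjClasses_carrier]
  rcases hfx' with h | h
  · exfalso
    apply hxc
    rw [Cfsg.Agent.Lib.Helper67.ncard_conjClasses_carrier, Subgroup.index_eq_one] at h
    rw [Subgroup.mem_center_iff]
    intro g
    have hg : g ∈ Subgroup.centralizer ({x} : Set G) := by
      rw [h]
      exact Subgroup.mem_top g
    rw [Subgroup.mem_centralizer_iff] at hg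
    exact (hg x (Set.mem_singleton x)).symm
  · exact h

end Cfsg.Agent.Lib.Helper97.S4033
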