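-- Team project S4033 (helper9), package [Qa] (helper97): lifting centralizers and p-regular
-- elements modulo a normal p-subgroup.
import Mathlib
import Cfsg.Agent.Lib.Helper9.S4033.Defs
import Cfsg.Agent.Lib.Helper1.SZInternal

set_option autoImplicit false

namespace Cfsg.Agent.Lib.Helper97.S4033

open Cfsg.Agent.Lib.Helper9.S4033

universe u

/-- [Qa] -/
theorem pkgQa : PkgQa.{u} := by
  intro G _ _ p hp M hMn hMp
  have hpf : Fact p.Prime := Fact.mk hp
  obtain ⟨j, hj⟩ := (IsPGroup.iff_card.mp hMp)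
  refine ⟨?_, ?_⟩
  · intro x hx y hy
    rw [Subgroup.mem_centralizer_iff] at hy
    have hxy : (QuotientGroup.mk x : G ⧸ M) * QuotientGroup.mk y =
        QuotientGroup.mk y * QuotientGroup.mk x := hy _ (Set.mem_singleton _)
    have hAN : Subgroup.zpowers x ≤ Subgroup.normalizer (M : Set G) := by
      intro a _
      rw [Subgroup.mem_normalizer_iff]
      intro h
      constructor
      · intro hh
        exact hMn.conj_mem h hh a
      · intro hh
        have h1 := hMn.conj_mem _ hh a⁻¹
        have h2 : a⁻¹ * (a * h * a⁻¹) * a⁻¹⁻¹ = h := by group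
        rwa [h2] at h1
    have hcop : (Nat.card (Subgroup.zpowers x)).Coprime (Nat.card M) := by
      rw [Nat.card_zpowers, hj]
      exact Nat.Coprime.pow_right j hx
    have hsolv : Group.IsSolvable (Subgroup.zpowers x) ∨ Group.IsSolvable M := by
      right
      have : Group.IsNilpotent M := hMp.isNilpotent
      infer_instance
    have hk : ∀ a ∈ Subgroup.zpowers x, y⁻¹ * a * y * a⁻¹ ∈ M := by
      intro a ha
      obtain ⟨i, rfl⟩ := Subgroup.mem_zpowers_iff.mp ha
      rw [← QuotientGroup.eq_one_iff]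
      have hc : Commute (QuotientGroup.mk x : G ⧸ M) (QuotientGroup.mk y) := hxy
      have hc2 : Commute ((QuotientGroup.mk x : G ⧸ M) ^ i) (QuotientGroup.mk y) :=
        hc.zpow_left i
      have h3 : ((y⁻¹ * x ^ i * y * (x ^ i)⁻¹ : G) : G ⧸ M) =
          (QuotientGroup.mk y : G ⧸ M)⁻¹ * (QuotientGroup.mk x : G ⧸ M) ^ i *
            QuotientGroup.mk y * ((QuotientGroup.mk x : G ⧸ M) ^ i)⁻¹ := rfl
      rw [h3, mul_assoc (QuotientGroup.mk y : G ⧸ M)⁻¹, hc2.eq, ← mul_assoc, inv_mul_cancel,
        one_mul, mul_inv_cancel]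
    obtain ⟨n, hn, hc⟩ := Cfsg.Agent.Lib.Helper1.exists_mul_mem_centralizer
      (Subgroup.zpowers x) M hAN hcop hsolv y hk
    refine ⟨y * n, ?_, ?_⟩
    · rw [Subgroup.mem_centralizer_iff] at hc ⊢
      intro h hh
      rw [Set.mem_singleton_iff] at hh
      rw [hh]
      exact hc x (Subgroup.mem_zpowers x)
    · rw [QuotientGroup.mk_mul, (QuotientGroup.eq_one_iff n).mpr hn, mul_one]
  · intro H c hcH hcp
    have ho : 0 < orderOf c := orderOf_pos c
    have hP : ordProj[p] (orderOf c) * ordCompl[p] (orderOf c) = orderOf c :=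
      Nat.ordProj_mul_ordCompl_eq_self (orderOf c) p
    have hcm : Nat.Coprime p (ordCompl[p] (orderOf c)) := Nat.coprime_ordCompl hp ho.ne'
    have hco : Nat.Coprime (ordProj[p] (orderOf c)) (ordCompl[p] (orderOf c)) :=
      Nat.Coprime.pow_left _ hcm
    obtain ⟨e, he0, he1⟩ := Nat.chineseRemainder hco 0 1
    refine ⟨c ^ e, H.pow_mem hcH e, ?_, ?_⟩
    · have hdvd : orderOf (c ^ e) ∣ ordCompl[p] (orderOf c) := by
        apply orderOf_dvd_of_pow_eq_one
        rw [← pow_mul]
        have h : orderOf c ∣ e * ordCompl[p] (orderOf c) := by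
          have h' := Nat.mul_dvd_mul_right ((Nat.modEq_zero_iff_dvd).mp he0)
            (ordCompl[p] (orderOf c))
          rwa [hP] at h'
        exact orderOf_dvd_iff_pow_eq_one.mp h
      exact Nat.Coprime.coprime_dvd_left hdvd hcm.symm
    · have hd1 : orderOf (QuotientGroup.mk c : G ⧸ M) ∣ orderOf c := by
        apply orderOf_dvd_of_pow_eq_one
        rw [← QuotientGroup.mk_pow, pow_orderOf_eq_one]
        rfl
      have hd2 : orderOf (QuotientGroup.mk c : G ⧸ M) ∣ ordCompl[p] (orderOf c) := by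
        rw [← hP] at hd1
        exact (Nat.Coprime.pow_right _ hcp).dvd_of_dvd_mul_left hd1
      have h1 : e ≡ 1 [MOD orderOf (QuotientGroup.mk c : G ⧸ M)] := he1.of_dvd hd2
      rw [QuotientGroup.mk_pow]
      have h2 := pow_eq_pow_iff_modEq.mpr h1
      rw [pow_one] at h2
      exact h2

end Cfsg.Agent.Lib.Helper97.S4033
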