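-- Team project S4033 (helper9), packages [X] and [XP] (helper97).
import Mathlib
import Cfsg.Agent.Lib.Helper9.S4033.Defs

set_option autoImplicit false

namespace Cfsg.Agent.Lib.Helper97.S4033

open Cfsg.Agent.Lib.Helper9.S4033

universe u

/-- [X] the general case, by induction on the order, from [XP] and [Q]. -/
theorem pkgX (hXP : PkgXP.{u}) (hQ : PkgQ.{u}) : PkgX.{u} := by
  have key : ∀ n : ℕ, ∀ (G : Type u) [Group G] [Finite G], Nat.card G = n →
      ∀ p a : ℕ, p.Prime → a.Coprime p → HypX G p a → TwoPrimes G p → Full G p a := by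
    intro n
    induction n using Nat.strong_induction_on with
    | _ n ih =>
      intro G _ _ hn p a hp ha hX hT
      by_cases hM : ∀ M : Subgroup G, M.Normal → IsPGroup p M → M = ⊥
      · exact hXP G p a hp ha hX hT hM
      · push Not at hM
        obtain ⟨M, hMn, hMp, hM0⟩ := hM
        rcases hQ G p a hp ha hX hT M hMp with hF | ⟨hX', hT'⟩
        · exact hF
        · have hcard : Nat.card G = Nat.card (G ⧸ M) * Nat.card M :=
            Subgroup.card_eq_card_quotient_mul_card_subgroup M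
          have hM1 : 1 < Nat.card M := by
            rw [Finite.one_lt_card_iff_nontrivial]
            exact (Subgroup.nontrivial_iff_ne_bot M).mpr hM0
          have hpos : 0 < Nat.card (G ⧸ M) := Nat.card_pos
          have hlt : Nat.card (G ⧸ M) < n := by
            rw [← hn, hcard]
            exact lt_mul_of_one_lt_right hpos hM1
          obtain ⟨k, hk⟩ := ih _ hlt (G ⧸ M) rfl p a hp ha hX' hT'
          have hpf : Fact p.Prime := Fact.mk hp
          obtain ⟨j, hj⟩ := (IsPGroup.iff_card.mp hMp)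
          exact ⟨k + j, by rw [hcard, hk, hj, pow_add]; ring⟩
  intro G _ _ p a hp ha hX hT
  exact key _ G rfl p a hp ha hX hT

/-- [XP] the case `O_p(G) = 1`, from [E], [K], [F1], [F2]. -/
theorem pkgXP (hE : PkgE.{u}) (hK : PkgK.{u}) (hF1 : PkgF1.{u}) (hF2 : PkgF2.{u}) :
    PkgXP.{u} := by
  intro G _ _ p a hp ha hX hT hOp
  have hT0 := hT
  obtain ⟨s0, t0, hs0, ht0, -, hs0p, -, ⟨x0, hx0c, k0, hx0⟩, -⟩ := hT0
  have hx0p : (orderOf x0).Coprime p := by
    rw [hx0]
    exact Nat.Coprime.pow_left k0 ((Nat.coprime_primes hs0 hp).mpr hs0p)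
  have hu : ∃ u : G, (orderOf u).Coprime p ∧ u ∉ Subgroup.center G := ⟨x0, hx0p, hx0c⟩
  obtain ⟨-, kc, hkc⟩ := hX x0 hx0p hx0c
  have hadvd : a ∣ Nat.card G := by
    have h1 : Nat.card (Subgroup.centralizer ({x0} : Set G)) ∣ Nat.card G :=
      Subgroup.card_subgroup_dvd_card _
    rw [hkc] at h1
    exact (Dvd.intro_left _ rfl).trans h1
  have hG0 : Nat.card G ≠ 0 := Nat.card_pos.ne'
  by_cases hall : ∀ r : ℕ, r.Prime → r ≠ p →
      (Nat.card G).factorization r ≤ a.factorization r
  · obtain ⟨b, hb⟩ := hadvd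
    have ha0 : a ≠ 0 := by
      rintro rfl
      rw [zero_mul] at hb
      exact hG0 hb
    have hb0 : b ≠ 0 := by
      rintro rfl
      rw [mul_zero] at hb
      exact hG0 hb
    have hbp : b = p ^ b.primeFactorsList.length := by
      apply Nat.eq_prime_pow_of_unique_prime_dvd hb0
      intro d hd hdb
      by_contra hdp
      have h1 := hall d hd hdp
      rw [hb, Nat.factorization_mul ha0 hb0, Finsupp.add_apply] at h1
      have h2 := hd.factorization_pos_of_dvd hb0 hdb
      omega
    exact ⟨b.primeFactorsList.length, by rw [hb, ← hbp, mul_comm]⟩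
  · push Not at hall
    obtain ⟨s, hs, hsp, hlt⟩ := hall
    have huniq : ∀ r : ℕ, r.Prime → r ≠ p → r ≠ s →
        (Nat.card G).factorization r ≤ a.factorization r := by
      intro r hr hrp hrs
      by_contra hcon
      push Not at hcon
      exact hrs (hE G p a hp ha hX hu r s hr hs hrp hsp hcon hlt)
    obtain ⟨N, hNn, hNs, x, hxN, hxc, hxp⟩ := hK G p a hp ha hX hu s hs hsp hlt huniq
    obtain ⟨w, hw1, hw2, hw3⟩ := hF1 G p a hp ha hX hT hOp N hNn hNs ⟨x, hxN, hxc, hxp⟩
    exact hF2 G p a hp ha hX hT w hw1 hw2 hw3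

end Cfsg.Agent.Lib.Helper97.S4033
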